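import Cfsg.Agent.LowerCentral.Bracket
import Mathlib.GroupTheory.PGroup
import Mathlib.GroupTheory.Solvable
import Mathlib.Data.Nat.Factorization.Basic
import Mathlib.Tactic

/-!
Mann's improvement of P. Hall's bound for the order of a `p`-group of given derived length: if a
derived factor has the least order allowed by its depth in the lower central series, then the next
term of the derived series is cyclic modulo its commutator with the group, which pushes all later
terms deeper.
-/

set_option autoImplicit false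

namespace CfsgLib.MannBound

open CfsgLib.LowerCentral
open scoped commutatorElement

variable {G : Type*} [Group G]

/-- The exponent of `p` in the order of a subgroup. -/
noncomputable def ex (p : ℕ) (X : Subgroup G) : ℕ := (Nat.card X).factorization p

/-- `N` is cyclic modulo `[N, G]`. -/
def Cyc (N : Subgroup G) : Prop := ∃ a ∈ N, N ≤ Subgroup.zpowers a ⊔ ⁅N, ⊤⁆

theorem lcs_eq_bracketTop (d : ℕ) :
    (⊤ : Subgroup G).lowerCentralSeries d = bracketTop ⊤ d := by
  induction d with
  | zero => rfl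
  | succ d ih => rw [Subgroup.lowerCentralSeries_succ, ih, bracketTop_succ]

theorem commutator_lcs_le (a b : ℕ) :
    ⁅(⊤ : Subgroup G).lowerCentralSeries a, (⊤ : Subgroup G).lowerCentralSeries b⁆ ≤
      (⊤ : Subgroup G).lowerCentralSeries (a + (b + 1)) := by
  haveI := lowerCentralSeries_normal (⊤ : Subgroup G) a
  refine (commutator_lowerCentralSeries_le _ b).trans ?_
  rw [lcs_eq_bracketTop a, bracketTop_add, ← lcs_eq_bracketTop]

/-- Commutators with a normal subgroup deep in the lower central series. -/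
theorem commutator_bracketTop_le {N : Subgroup G} [N.Normal] {d : ℕ}
    (hN : N ≤ (⊤ : Subgroup G).lowerCentralSeries d) (j : ℕ) :
    ⁅N, bracketTop N j⁆ ≤ bracketTop N (j + (d + 1)) := by
  haveI := bracketTop_normal N j
  rw [Subgroup.commutator_comm]
  refine (Subgroup.commutator_mono le_rfl hN).trans ((commutator_lowerCentralSeries_le _ d).trans ?_)
  rw [bracketTop_add]

/-- The derived subgroup of a subgroup generated modulo `X` by two elements. -/
theorem commutator_le_of_two_gen {N X Y : Subgroup G} [N.Normal] [Y.Normal] {a b : G}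
    (ha : a ∈ N) (hb : b ∈ N) (hXN : X ≤ N) (hgen : N ≤ Subgroup.closure {a, b} ⊔ X)
    (hX : ⁅N, X⁆ ≤ Y) (hY : ⁅⁅N, N⁆, ⊤⁆ ≤ Y) :
    ⁅N, N⁆ ≤ Subgroup.zpowers ⁅a, b⁆ ⊔ Y := by
  set K := Subgroup.zpowers ⁅a, b⁆ ⊔ Y with hK
  have hcN : ⁅a, b⁆ ∈ ⁅N, N⁆ := Subgroup.commutator_mem_commutator ha hb
  have hKn : K.Normal := by
    refine ⟨fun x hx g => ?_⟩
    have hle : K ≤ K.comap (MulAut.conj g).toMonoidHom := by
      refine sup_le (Subgroup.zpowers_le.2 ?_) fun y hy => ?_
      · change g * ⁅a, b⁆ * g⁻¹ ∈ K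
        have h1 : ⁅g, ⁅a, b⁆⁆ ∈ Y := by
          refine hY ?_
          rw [Subgroup.commutator_comm]
          exact Subgroup.commutator_mem_commutator (Subgroup.mem_top g) hcN
        have : g * ⁅a, b⁆ * g⁻¹ = ⁅g, ⁅a, b⁆⁆ * ⁅a, b⁆ := by
          simp only [commutatorElement_def]; group
        rw [this]
        exact mul_mem (Subgroup.mem_sup_right h1) (Subgroup.mem_sup_left (Subgroup.mem_zpowers _))
      · exact Subgroup.mem_sup_right ((inferInstance : Y.Normal).conj_mem y hy g)
    exact hle hx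
  let π := QuotientGroup.mk' K
  have hπ : ∀ {x y : G}, ⁅x, y⁆ ∈ K → Commute (π x) (π y) := fun {x y} h => by
    refine commutatorElement_eq_one_iff_mul_comm.1 ?_
    rw [← map_commutatorElement]
    exact (QuotientGroup.eq_one_iff _).2 h
  let S : Set G := {a, b} ∪ X
  have hSN : ∀ x ∈ S, x ∈ N := by
    rintro x ((rfl | rfl) | hx)
    · exact ha
    · exact hb
    · exact hXN hx
  have hS : ∀ x ∈ S, ∀ y ∈ S, Commute (π x) (π y) := by
    have hXc : ∀ x ∈ X, ∀ y ∈ S, Commute (π x) (π y) := fun x hx y hy =>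
      (hπ (Subgroup.mem_sup_right (hX (Subgroup.commutator_mem_commutator (hSN y hy) hx)))).symm
    intro x hx y hy
    rcases hx with hx | hx
    · rcases hy with hy | hy
      · have hab : Commute (π a) (π b) := hπ (Subgroup.mem_sup_left (Subgroup.mem_zpowers _))
        rcases hx with rfl | rfl <;> rcases hy with rfl | rfl
        · exact Commute.refl _
        · exact hab
        · exact hab.symm
        · exact Commute.refl _
      · exact (hXc y hy x (Or.inl hx)).symm
    · exact hXc x hx y hy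
  have hNS : N ≤ Subgroup.closure S := hgen.trans (sup_le (Subgroup.closure_mono Set.subset_union_left)
    fun x hx => Subgroup.subset_closure (Or.inr hx))
  have h1 : ∀ x ∈ Subgroup.closure S, ∀ y ∈ S, Commute (π x) (π y) := by
    intro x hx y hy
    induction hx using Subgroup.closure_induction with
    | mem z hz => exact hS z hz y hy
    | one => rw [map_one]; exact Commute.one_left _
    | mul u v _ _ hu hv => rw [map_mul]; exact hu.mul_left hv
    | inv u _ hu => rw [map_inv]; exact hu.inv_left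
  have h2 : ∀ x ∈ Subgroup.closure S, ∀ y ∈ Subgroup.closure S, Commute (π x) (π y) := by
    intro x hx y hy
    induction hy using Subgroup.closure_induction with
    | mem z hz => exact h1 x hx z hz
    | one => rw [map_one]; exact Commute.one_right _
    | mul u v _ _ hu hv => rw [map_mul]; exact hu.mul_right hv
    | inv u _ hu => rw [map_inv]; exact hu.inv_right
  rw [Subgroup.commutator_le]
  intro x hx y hy
  refine (QuotientGroup.eq_one_iff _).1 ?_
  change π ⁅x, y⁆ = 1
  rw [map_commutatorElement, commutatorElement_eq_one_iff_mul_comm]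
  exact h2 x (hNS hx) y (hNS hy)

theorem Cyc.commutator_le {N : Subgroup G} [N.Normal] (h : Cyc N) {d : ℕ}
    (hN : N ≤ (⊤ : Subgroup G).lowerCentralSeries d) :
    ⁅N, N⁆ ≤ ⁅N, bracketTop N 1⁆ := by
  obtain ⟨a, ha, hgen⟩ := h
  haveI := bracketTop_normal N 1
  have hle : ⁅N, N⁆ ≤ bracketTop N 1 := Subgroup.commutator_mono le_rfl le_top
  have hY : ⁅⁅N, N⁆, ⊤⁆ ≤ ⁅N, bracketTop N 1⁆ := by
    refine commutator_commutator_le_of_rotate ?_ ?_
    · rw [Subgroup.commutator_comm ⁅N, (⊤ : Subgroup G)⁆]; exact le_rfl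
    · rw [Subgroup.commutator_comm ⊤ N, Subgroup.commutator_comm ⁅N, (⊤ : Subgroup G)⁆]; exact le_rfl
  refine (commutator_le_of_two_gen (Y := ⁅N, bracketTop N 1⁆) ha ha (bracketTop_le N 1)
    (hgen.trans (sup_le_sup (Subgroup.zpowers_le.2 (Subgroup.subset_closure (Set.mem_insert a _)))
      le_rfl)) le_rfl hY).trans (sup_le (Subgroup.zpowers_le.2 ?_) le_rfl)
  rw [commutatorElement_self]
  exact one_mem _

variable [Finite G] {p : ℕ} [Fact p.Prime]

theorem card_eq_pow (hG : IsPGroup p G) (X : Subgroup G) : Nat.card X = p ^ ex p X := by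
  obtain ⟨n, hn⟩ := IsPGroup.iff_card.1 (hG.to_subgroup X)
  rw [ex, hn, (Fact.out : p.Prime).factorization_pow, Finsupp.single_eq_same]

theorem ex_mono (hG : IsPGroup p G) {X Y : Subgroup G} (h : X ≤ Y) : ex p X ≤ ex p Y := by
  have := Subgroup.card_le_of_le h
  rw [card_eq_pow hG, card_eq_pow hG] at this
  exact (Nat.pow_le_pow_iff_right (Fact.out : p.Prime).one_lt).1 this

theorem eq_of_ex_ge (hG : IsPGroup p G) {X Y : Subgroup G} (h : X ≤ Y) (h' : ex p Y ≤ ex p X) :
    X = Y := by
  refine Subgroup.eq_of_le_of_card_ge h ?_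
  rw [card_eq_pow hG, card_eq_pow hG]
  exact Nat.pow_le_pow_right (Fact.out : p.Prime).pos h'

theorem ex_lt (hG : IsPGroup p G) {X Y : Subgroup G} (h : X < Y) : ex p X < ex p Y :=
  lt_of_not_ge fun h' => h.ne (eq_of_ex_ge hG h.le h')

/-- A step of index at most `p` is cyclic. -/
theorem exists_gen_of_ex_le (hG : IsPGroup p G) {X N : Subgroup G} (hXN : X ≤ N)
    (h : ex p N ≤ ex p X + 1) : ∃ a ∈ N, N ≤ Subgroup.zpowers a ⊔ X := by
  rcases eq_or_lt_of_le hXN with rfl | hlt
  · exact ⟨1, one_mem _, le_sup_right⟩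
  · obtain ⟨a, ha, haX⟩ := SetLike.exists_of_lt hlt
    have hle : Subgroup.zpowers a ⊔ X ≤ N := sup_le (Subgroup.zpowers_le.2 ha) hXN
    have : X < Subgroup.zpowers a ⊔ X := lt_of_le_of_ne le_sup_right fun e =>
      haX (e.ge (Subgroup.mem_sup_left (Subgroup.mem_zpowers a)))
    have := ex_lt hG this
    exact ⟨a, ha, (eq_of_ex_ge hG hle (by omega)).ge⟩

/-- The series `[N, G, …, G]` drops as long as it contains a non-trivial subgroup. -/
theorem ex_bracketTop (hG : IsPGroup p G) {N : Subgroup G} [N.Normal] {B : ℕ} {Z : Subgroup G}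
    (hZ : Z ≠ ⊥) (hZB : Z ≤ bracketTop N B) {i j : ℕ} (hij : i ≤ j) (hj : j ≤ B) :
    ex p (bracketTop N j) + (j - i) ≤ ex p (bracketTop N i) := by
  haveI : Group.IsNilpotent G := hG.isNilpotent
  induction j, hij using Nat.le_induction with
  | base => simp
  | succ j hij ih =>
    have hlt : bracketTop N (j + 1) < bracketTop N j :=
      lt_of_le_of_ne (bracketTop_antitone N (Nat.le_succ j)) fun e => by
        have hb : bracketTop N j = ⊥ := eq_bot_of_le_commutator_top (e.ge.trans le_rfl)
        exact hZ (le_bot_iff.1 (hb ▸ hZB.trans (bracketTop_antitone N (by omega : j ≤ B))))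
    have := ex_lt hG hlt
    have := ih (by omega)
    omega

/-- The layer bound, and the consequence of equality. -/
theorem layer (hG : IsPGroup p G) {N : Subgroup G} [N.Normal] {d : ℕ}
    (hN : N ≤ (⊤ : Subgroup G).lowerCentralSeries d) (hne : ⁅N, N⁆ ≠ ⊥) :
    ex p ⁅N, N⁆ + d + 2 ≤ ex p N ∧ (ex p N ≤ ex p ⁅N, N⁆ + d + 2 → Cyc ⁅N, N⁆) := by
  haveI := bracketTop_normal N 1
  have h0 : bracketTop N 0 = N := rfl
  by_cases hc : Cyc N
  · have hB : ⁅N, N⁆ ≤ bracketTop N (d + 2) := by
      refine (hc.commutator_le hN).trans ((commutator_bracketTop_le hN 1).trans ?_)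
      rw [show 1 + (d + 1) = d + 2 by omega]
    have h1 := ex_bracketTop hG hne hB (Nat.zero_le (d + 2)) le_rfl
    have h2 := ex_mono hG hB
    rw [h0] at h1
    refine ⟨by omega, fun heq => ?_⟩
    have hNB : ⁅N, N⁆ = bracketTop N (d + 2) := eq_of_ex_ge hG hB (by omega)
    have h3 := ex_bracketTop hG hne hB (by omega : 2 ≤ d + 2) le_rfl
    have h4 := ex_bracketTop hG hne hB (Nat.zero_le 1) (by omega)
    rw [h0] at h4
    obtain ⟨c, hc', hgen'⟩ := exists_gen_of_ex_le hG (bracketTop_antitone N (by omega : 1 ≤ 2))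
      (by omega)
    obtain ⟨a, ha, hgen⟩ := hc
    haveI := bracketTop_normal N (d + 2 + 1)
    refine ⟨⁅a, c⁆, Subgroup.commutator_mem_commutator ha (bracketTop_le N 1 hc'), ?_⟩
    have hY : ⁅⁅N, N⁆, (⊤ : Subgroup G)⁆ = bracketTop N (d + 2 + 1) := by
      rw [hNB]; rfl
    rw [hY]
    refine commutator_le_of_two_gen ha (bracketTop_le N 1 hc') (bracketTop_le N 2) ?_ ?_ hY.le
    · refine hgen.trans (sup_le ?_ ?_)
      · exact (Subgroup.zpowers_le.2 (Subgroup.subset_closure (Set.mem_insert a _))).trans le_sup_left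
      · refine hgen'.trans (sup_le_sup ?_ le_rfl)
        exact Subgroup.zpowers_le.2 (Subgroup.subset_closure (Set.mem_insert_of_mem a rfl))
    · refine (commutator_bracketTop_le hN 2).trans ?_
      rw [show 2 + (d + 1) = d + 2 + 1 by omega]
  · have hB : ⁅N, N⁆ ≤ bracketTop N (d + 1) := by
      refine (commutator_bracketTop_le hN 0).trans ?_
      rw [Nat.zero_add]
    have h1 := ex_bracketTop hG hne hB (by omega : 1 ≤ d + 1) le_rfl
    have h2 := ex_mono hG hB
    have h3 : ex p (bracketTop N 1) + 2 ≤ ex p N := by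
      by_contra hlt
      obtain ⟨a, ha, hgen⟩ := exists_gen_of_ex_le hG (X := bracketTop N 1) (bracketTop_le N 1)
        (by omega)
      exact hc ⟨a, ha, hgen⟩
    refine ⟨by omega, fun heq => ?_⟩
    have hNB : ⁅N, N⁆ = bracketTop N (d + 1) := eq_of_ex_ge hG hB (by omega)
    obtain ⟨a, ha, haX⟩ := SetLike.exists_of_lt (lt_of_le_of_ne (bracketTop_le N 1)
      fun e => by rw [e] at h3; omega)
    have hK : Subgroup.zpowers a ⊔ bracketTop N 1 ≤ N :=
      sup_le (Subgroup.zpowers_le.2 ha) (bracketTop_le N 1)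
    obtain ⟨b, hb, hbK⟩ := SetLike.not_le_iff_exists.1
      (fun hle : N ≤ Subgroup.zpowers a ⊔ bracketTop N 1 => hc ⟨a, ha, hle⟩)
    set L := Subgroup.closure {a, b} ⊔ bracketTop N 1 with hL
    have hLN : L ≤ N := sup_le ((Subgroup.closure_le _).2 (Set.insert_subset ha
      (Set.singleton_subset_iff.2 hb))) (bracketTop_le N 1)
    have h5 : bracketTop N 1 < Subgroup.zpowers a ⊔ bracketTop N 1 :=
      lt_of_le_of_ne le_sup_right fun e => haX (e.ge (Subgroup.mem_sup_left (Subgroup.mem_zpowers a)))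
    have h6 : Subgroup.zpowers a ⊔ bracketTop N 1 < L :=
      lt_of_le_of_ne (sup_le_sup (Subgroup.zpowers_le.2 (Subgroup.subset_closure (Set.mem_insert a _)))
        le_rfl) fun e => hbK (e.ge (Subgroup.mem_sup_left
          (Subgroup.subset_closure (Set.mem_insert_of_mem a rfl))))
    have := ex_lt hG h5
    have := ex_lt hG h6
    have hgen : N ≤ L := (eq_of_ex_ge hG hLN (by omega)).ge
    haveI := bracketTop_normal N (d + 1 + 1)
    refine ⟨⁅a, b⁆, Subgroup.commutator_mem_commutator ha hb, ?_⟩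
    have hY : ⁅⁅N, N⁆, (⊤ : Subgroup G)⁆ = bracketTop N (d + 1 + 1) := by
      rw [hNB]; rfl
    rw [hY]
    refine commutator_le_of_two_gen ha hb (bracketTop_le N 1) hgen ?_ hY.le
    refine (commutator_bracketTop_le hN 1).trans ?_
    rw [show 1 + (d + 1) = d + 1 + 1 by omega]

theorem commutator_depth {N : Subgroup G} {d : ℕ}
    (hN : N ≤ (⊤ : Subgroup G).lowerCentralSeries d) :
    ⁅N, N⁆ ≤ (⊤ : Subgroup G).lowerCentralSeries (2 * d + 1) := by
  refine (Subgroup.commutator_mono hN hN).trans ((commutator_lcs_le d d).trans ?_)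
  rw [show d + (d + 1) = 2 * d + 1 by omega]

theorem Cyc.depth {N : Subgroup G} [N.Normal] (h : Cyc N) {d : ℕ}
    (hN : N ≤ (⊤ : Subgroup G).lowerCentralSeries d) :
    ⁅N, N⁆ ≤ (⊤ : Subgroup G).lowerCentralSeries (2 * d + 2) := by
  have h1 : bracketTop N 1 ≤ (⊤ : Subgroup G).lowerCentralSeries (d + 1) :=
    Subgroup.commutator_mono hN le_rfl
  refine (h.commutator_le hN).trans
    ((Subgroup.commutator_mono hN h1).trans ((commutator_lcs_le d (d + 1)).trans ?_))
  rw [show d + (d + 1 + 1) = 2 * d + 2 by omega]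

theorem derivedSeries_le_lcs (i : ℕ) :
    derivedSeries G i ≤ (⊤ : Subgroup G).lowerCentralSeries (2 ^ i - 1) := by
  induction i with
  | zero => exact le_top
  | succ i ih =>
    rw [derivedSeries_succ]
    refine (commutator_depth ih).trans ((⊤ : Subgroup G).lowerCentralSeries_antitone ?_)
    rw [pow_succ]
    have := Nat.one_le_two_pow (n := i)
    omega

/-- Below a layer that starts deeper every layer gains. -/
theorem tail (hG : IsPGroup p G) (k : ℕ) (hk : derivedSeries G k ≠ ⊥) (j : ℕ) :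
    ∀ i, i + j = k → derivedSeries G i ≤ (⊤ : Subgroup G).lowerCentralSeries (2 ^ i) →
      2 ^ k + 2 * j + 1 ≤ ex p (derivedSeries G i) + 2 ^ i := by
  induction j with
  | zero =>
    intro i hi _
    obtain rfl : i = k := by omega
    have : 0 < ex p (derivedSeries G i) := by
      have h1 := ex_lt hG (bot_lt_iff_ne_bot.2 hk)
      omega
    omega
  | succ j ih =>
    intro i hi hd
    haveI := derivedSeries_normal G i
    have hne : ⁅derivedSeries G i, derivedSeries G i⁆ ≠ ⊥ := fun e =>
      hk (le_bot_iff.1 ((derivedSeries_antitone G (by omega : i + 1 ≤ k)).trans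
        (derivedSeries_succ G i ▸ e).le))
    obtain ⟨h1, -⟩ := layer hG hd hne
    rw [← derivedSeries_succ] at h1
    have h2 := ih (i + 1) (by omega) (by
      rw [derivedSeries_succ, pow_succ]
      exact (commutator_depth hd).trans ((⊤ : Subgroup G).lowerCentralSeries_antitone (by omega)))
    have h3 : (2:ℕ) ^ (i + 1) = 2 * 2 ^ i := pow_succ' 2 i
    omega

/-- A layer cyclic at the top pushes the next one deeper. -/
theorem bound_cyc (hG : IsPGroup p G) (k : ℕ) (hk : derivedSeries G k ≠ ⊥) (j : ℕ) (i : ℕ)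
    (hi : i + j = k) (hc : Cyc (derivedSeries G i)) :
    2 ^ k + 2 * j ≤ ex p (derivedSeries G i) + 2 ^ i := by
  rcases Nat.eq_zero_or_pos j with rfl | hj
  · obtain rfl : i = k := by omega
    omega
  · haveI := derivedSeries_normal G i
    have hd := derivedSeries_le_lcs (G := G) i
    have hne : ⁅derivedSeries G i, derivedSeries G i⁆ ≠ ⊥ := fun e =>
      hk (le_bot_iff.1 ((derivedSeries_antitone G (by omega : i + 1 ≤ k)).trans
        (derivedSeries_succ G i ▸ e).le))
    obtain ⟨h1, -⟩ := layer hG hd hne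
    rw [← derivedSeries_succ] at h1
    have h2 := tail hG k hk (j - 1) (i + 1) (by omega) (by
      rw [derivedSeries_succ, pow_succ]
      have := Nat.one_le_two_pow (n := i)
      exact (hc.depth hd).trans ((⊤ : Subgroup G).lowerCentralSeries_antitone (by omega)))
    have h3 : (2:ℕ) ^ (i + 1) = 2 * 2 ^ i := pow_succ' 2 i
    have := Nat.one_le_two_pow (n := i)
    omega

/-- **Mann's bound.** -/
theorem bound (hG : IsPGroup p G) (k : ℕ) (hk : derivedSeries G k ≠ ⊥) (j : ℕ) :
    ∀ i, i + j = k → 2 ^ k + 2 * j ≤ ex p (derivedSeries G i) + 2 ^ i + 1 := by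
  induction j with
  | zero =>
    intro i hi
    obtain rfl : i = k := by omega
    omega
  | succ j ih =>
    intro i hi
    haveI := derivedSeries_normal G i
    have hd := derivedSeries_le_lcs (G := G) i
    have hne : ⁅derivedSeries G i, derivedSeries G i⁆ ≠ ⊥ := fun e =>
      hk (le_bot_iff.1 ((derivedSeries_antitone G (by omega : i + 1 ≤ k)).trans
        (derivedSeries_succ G i ▸ e).le))
    obtain ⟨h1, h2⟩ := layer hG hd hne
    rw [← derivedSeries_succ] at h1 h2
    have h3 : (2:ℕ) ^ (i + 1) = 2 * 2 ^ i := pow_succ' 2 i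
    have := Nat.one_le_two_pow (n := i)
    have := ih (i + 1) (by omega)
    by_cases heq : ex p (derivedSeries G i) ≤ ex p (derivedSeries G (i + 1)) + (2 ^ i - 1) + 2
    · have := bound_cyc hG k hk j (i + 1) (by omega) (h2 heq)
      omega
    · omega

end CfsgLib.MannBound
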